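import Cfsg.Agent.H720.SylInv

/-!
# Families of elements of tori (helper531)

`D.group F`, `|F| = q`, `r ∤ q` a prime.

* `mem_TT_of_comm_fam` : the elements of `D.group k` commuting with a finite family `t i` of elements of the torus, are in
  the torus, if no root and no element of the Weyl group is trivial on all `t i`;
* `exists_self_cent` : if `w` is an element of the Weyl group and the homomorphisms `f i : ℤ^l → ℤ/r`, `f i (w x) = q f i x`,
  separate the roots in this sense, and all torus elements `t` with `t^w = t^q` satisfy `t^r = 1`, then the centralizer of a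
  Sylow `r`-subgroup of `D.group F` is an `r`-group.
-/

set_option autoImplicit false
set_option linter.unusedSectionVars false

namespace Cfsg.Agent.H531.EP.TorFam

open CoxeterSystem Cfsg Cfsg.Lie Cfsg.Lie.ChevalleyDatum
open Cfsg.Agent.ChevalleyStructure Cfsg.Agent.ChevalleyStructure.Elts Cfsg.Agent.ChevalleyStructure.CoxeterGeom
  Cfsg.Agent.ChevalleyStructure.CoxeterGeomTypes Cfsg.Agent.ChevalleyStructure.NPerm
open Cfsg.Agent.Tits.Roots Cfsg.Agent.Tits.Core Cfsg.Agent.Nodes Cfsg.Agent.Nodes.Reps Cfsg.Agent.Nodes.BNOf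
  Cfsg.Agent.Nodes.RGDChev Cfsg.Agent.Nodes.Bruhat Cfsg.Agent.Nodes.SubComb Cfsg.Agent.Nodes.Coroot
open Cfsg.Agent.KFacts.RgdField Cfsg.Agent.KFacts.RgdChevCoord Cfsg.Agent.BpExc.TorCent Cfsg.Agent.BpExc.TorChev
open Cfsg.Agent.GpExc.Field Cfsg.Agent.BpExc.Tow Cfsg.Agent.BpExc.TowChev Cfsg.Agent.BpExc.Fr
  Cfsg.Agent.BpExc.LangFr Cfsg.Agent.LangThm Cfsg.Agent.BpExc Cfsg.Agent.H129.TorusChar Cfsg.Agent.H129.TorusCent
  Cfsg.Agent.H129.TorusTw Cfsg.Agent.H129.TorusMain Cfsg.Agent.H129.TorusUntw Cfsg.Agent.H720.TorusReal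

universe u

variable {D : ChevalleyDatum} {l : ℕ} {M : CoxeterMatrix (Fin l)} (hp : IsType D l M) {k : Type u} [Field k]
  {W : Type*} [Group W] (cs : CoxeterSystem M W)

/-- **The centraliser of a family of torus elements is the torus.** -/
theorem mem_TT_of_comm_fam [Finite W] (hk : LocFin k) (p : ℕ) [Fact p.Prime] [CharP k p] {ι : Type*} [Finite ι]
    {t : ι → ↥(D.group k)} (ht : ∀ i, t i ∈ TT D k)
    (h1 : ∀ a, IsRoot cs hp.isCartan a → ∃ i, cX hp (t i) a ≠ 1)
    (h2 : ∀ w : W, (∀ i, ∀ a, IsRoot cs hp.isCartan a → cX hp (t i) (rep cs hp.isCartan w a) = cX hp (t i) a) → w = 1)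
    {c : ↥(D.group k)} (hc : ∀ i, c * t i = t i * c) : c ∈ TT D k := by
  have H := tow hp cs hk p
  have C := coordsL hp cs hk p
  rw [← TL_eq hp hk, ← XL_eq hp hk] at C
  have ht' : ∀ i, t i ∈ TL (Tj hp (k := k)) := fun i => by rw [TL_eq hp hk]; exact ht i
  have hcG : c ∈ GG cs hp.isCartan (TL (Tj hp (k := k))) (XL (Xj hp)) := by
    rw [GG_eq_top hp cs hk]; exact Subgroup.mem_top c
  obtain ⟨j0, hj0⟩ := H.mem_GG.1 hcG
  have hne := H.ne
  have hdir : IsDirectedOrder (Lev k) := ⟨fun a b => H.dir a b⟩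
  choose jt hjt using fun i => H.mem_TL.1 (ht' i)
  obtain ⟨j1, hj1⟩ := Finite.exists_le jt
  obtain ⟨j, a1, a2⟩ := H.dir j0 j1
  set S : Set ↥(D.group k) := Set.range t with hS
  have hST : S ⊆ Tj hp (k := k) j := by
    rintro _ ⟨i, rfl⟩
    exact H.monoT ((hj1 i).trans a2) (hjt i)
  have hcS : c ∈ Subgroup.centralizer S := by
    rw [Subgroup.mem_centralizer_iff]
    rintro _ ⟨i, rfl⟩
    exact (hc i).symm
  obtain ⟨u, hu, w, n, hn, hnS, v, hv, e⟩ := NormalForm.mem_centralizer (H.rgd j) hST (H.mono_GG a1 hj0) hcS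
  have hbot : RGD.Sup (fun x => Xj hp (k := k) j x ⊓ Subgroup.centralizer S) (RGD.Pos cs hp.isCartan) ≤ ⊥ := by
    refine RGD.Sup_le fun a ha => ?_
    rintro y ⟨hy, hyS⟩
    rw [Subgroup.mem_bot]
    by_contra hy1
    obtain ⟨i, hi⟩ := h1 a ha.1
    have h3 : a ∈ Sx cs hp.isCartan (ch hp) (t i) := by
      refine mem_Sx_of_centralizer C (ht' i) ha.1 (le_XL (X := Xj hp (k := k)) j a hy) hy1 ?_
      rw [Subgroup.mem_centralizer_singleton_iff]
      exact (Subgroup.mem_centralizer_iff.1 hyS (t i) ⟨i, rfl⟩).symm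
    exact hi (by rw [cX_root hp cs (ht i) ha.1]; exact h3.2)
  have hu1 : u = 1 := Subgroup.mem_bot.1 (hbot hu)
  have hv1 : v = 1 := Subgroup.mem_bot.1 (hbot hv)
  rw [hu1, hv1, one_mul, mul_one] at e
  subst e
  have hnL := H.rp_up hn
  have hw : w = 1 := by
    refine h2 w fun i a ha => ?_
    have h3 := C.chi_rp H.nsys hnL ha (ht' i)
    have h4 : c * t i * c⁻¹ = t i := by rw [hc i]; group
    rw [h4] at h3
    rw [cX_root hp cs (ht i) (ha.act w), cX_root hp cs (ht i) ha]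
    exact h3
  subst hw
  have h3 := hnL.mem_of_one
  rwa [TL_eq hp hk] at h3

/-- `x ↦ ζ ^ f(x)` -/
theorem isMC_val {ζ : k} {r : ℕ} [NeZero r] (hζ : ζ ^ r = 1) (f : (Fin l → ℤ) →+ ZMod r) :
    IsMC (fun x : Fin l → ℤ => ζ ^ (f x).val) where
  zero := by
    show ζ ^ (f 0).val = 1
    rw [map_zero, ZMod.val_zero, pow_zero]
  add x y := by
    show ζ ^ (f (x + y)).val = ζ ^ (f x).val * ζ ^ (f y).val
    rw [map_add, ZMod.val_add, ← pow_eq_pow_mod _ hζ, pow_add]

/-- `(ζ ^ a) ^ q = ζ ^ (q a)` -/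
theorem pow_val {ζ : k} {r : ℕ} [NeZero r] (hζ : ζ ^ r = 1) (a : ZMod r) (q : ℕ) :
    ζ ^ ((q : ZMod r) * a).val = (ζ ^ a.val) ^ q := by
  rw [← pow_mul, pow_eq_pow_mod (a.val * q) hζ]
  congr 1
  have h1 : (((a.val * q : ℕ) : ZMod r)).val = (a.val * q) % r := ZMod.val_natCast r _
  rw [← h1]
  congr 1
  push_cast
  rw [ZMod.natCast_val, ZMod.cast_id', id, mul_comm]

open scoped Pointwise in
/-- **The centralizer of a Sylow `r`-subgroup is an `r`-group.** -/
theorem exists_self_cent [Finite W] {F : Type u} [Field F] [Fintype F] {q : ℕ} (hq : Fintype.card F = q)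
    {B : Fin l → Fin l → ℤ} (hB : InvC D l 1 B) (w : W) {r : ℕ} [Fact r.Prime] (hrq : ¬ r ∣ q)
    {ι : Type*} [Finite ι] (f : ι → (Fin l → ℤ) →+ ZMod r)
    (hf : ∀ i x, f i (rep cs hp.isCartan w x) = (q : ZMod r) * f i x)
    (h1 : ∀ a, IsRoot cs hp.isCartan a → ∃ i, f i a ≠ 0)
    (h2 : ∀ v : W, (∀ i, ∀ a, IsRoot cs hp.isCartan a → f i (rep cs hp.isCartan v a) = f i a) → v = 1)
    (h3 : ∀ φ : (Fin l → ℤ) → AlgebraicClosure F, IsMC φ → (∀ x, φ (rep cs hp.isCartan w x) = φ x ^ q) →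
      ∀ x, φ x ^ r = 1) (P : Sylow r ↥(D.group F)) :
    ∀ x ∈ Subgroup.centralizer ((P : Subgroup ↥(D.group F)) : Set ↥(D.group F)), ∃ m : ℕ, x ^ r ^ m = 1 := by
  have hrp : r.Prime := Fact.out
  obtain ⟨p, e, hpF, hpc, hpk, he, rfl, hk⟩ := exists_closure hq
  let k := AlgebraicClosure F
  let f0 : F →+* k := algebraMap F k
  let hN : NSys M (TT D k) (nc hp k) := nsys_of_locFin hp cs hk p
  have hFr := fr_phi (k := k) (p := p) (e := e) hp cs
  obtain ⟨n, hn⟩ := exists_rp cs hN w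
  obtain ⟨z, hz⟩ := lang_all hp cs he (isFrob_phi (D := D) (k := k) (p := p) (e := e)) hFr 1 n
  rw [map_one, one_mul] at hz
  -- the root of unity
  have hrk : ((r : ℕ) : k) ≠ 0 := by
    intro h0
    rw [CharP.cast_eq_zero_iff k p] at h0
    have h4 := (Nat.prime_dvd_prime_iff_eq hpF.out hrp).1 h0
    exact hrq (h4 ▸ dvd_pow_self p he.ne')
  have hne : NeZero ((r : ℕ) : k) := ⟨hrk⟩
  obtain ⟨ζ, hζ⟩ := HasEnoughRootsOfUnity.exists_primitiveRoot k r
  have hζ1 : ζ ^ r = 1 := hζ.pow_eq_one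
  have hval : ∀ a : ZMod r, ζ ^ a.val = 1 → a = 0 := by
    intro a ha
    have h4 := hζ.dvd_of_pow_eq_one _ ha
    have h5 := Nat.eq_zero_of_dvd_of_lt h4 (ZMod.val_lt a)
    exact (ZMod.val_eq_zero a).1 h5
  have hinj : ∀ a b : ZMod r, ζ ^ a.val = ζ ^ b.val → a = b := by
    intro a b hab
    exact ZMod.val_injective r (hζ.pow_inj (ZMod.val_lt a) (ZMod.val_lt b) hab)
  -- the elements of the torus
  choose t ht htc using fun i => exists_cX (k := k) hp hB one_ne_zero (isMC_val hζ1 (f i))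
    (fun j => ⟨ζ ^ (f i (sr j)).val, pow_one _⟩)
  have hτ : ∀ i, n * H129.TorusUntw.phi D k p e (t i) * n⁻¹ = t i := by
    intro i
    rw [tau_iff hp cs hk isFrob_phi hFr hn (ht i)]
    intro x
    rw [theta_apply, htc, htc]
    show ζ ^ (f i (rep cs hp.isCartan w x)).val = _
    rw [hf, pow_val hζ1]
  have hfix : ∀ i, ∃ g : ↥(D.group F), emb hp.inList f0 g = z * t i * z⁻¹ := fun i =>
    fix_range hp cs f0 hq hB one_ne_zero (fun a => ⟨a, pow_one a⟩) (conj_fixed hz (hτ i) (Subgroup.mem_zpowers _))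
  choose g hg using hfix
  -- the centralizer of the family
  have key : ∀ x : ↥(D.group F), (∀ i, x * g i = g i * x) → x ^ r = 1 := by
    intro x hx
    set c := z⁻¹ * emb hp.inList f0 x * z with hc
    have hcT : c ∈ TT D k := by
      refine mem_TT_of_comm_fam hp cs hk p ht (fun a ha => ?_) (fun v hv => ?_) (fun i => ?_)
      · obtain ⟨i, hi⟩ := h1 a ha
        refine ⟨i, fun h4 => hi (hval _ ?_)⟩
        rw [htc] at h4
        exact h4
      · refine h2 v fun i a ha => hinj _ _ ?_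
        have h4 := hv i a ha
        rw [htc, htc] at h4
        exact h4
      · have h4 : t i = z⁻¹ * emb hp.inList f0 (g i) * z := by rw [hg i]; group
        rw [h4, hc]
        have h5 := congrArg (emb hp.inList f0) (hx i)
        rw [map_mul, map_mul] at h5
        calc z⁻¹ * emb hp.inList f0 x * z * (z⁻¹ * emb hp.inList f0 (g i) * z)
            = z⁻¹ * (emb hp.inList f0 x * emb hp.inList f0 (g i)) * z := by group
          _ = z⁻¹ * (emb hp.inList f0 (g i) * emb hp.inList f0 x) * z := by rw [h5]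
          _ = _ := by group
    have hcτ : n * H129.TorusUntw.phi D k p e c * n⁻¹ = c := by
      rw [hc, map_mul, map_mul, map_inv, phi_emb hp f0 hq, hz]
      group
    have h4 := (tau_iff hp cs hk isFrob_phi hFr hn hcT).1 hcτ
    have h5 := h3 (cX hp c) (isMC_cX hp hcT) (fun x => by
      have h6 := h4 x
      rw [theta_apply] at h6
      exact h6)
    have h6 : c ^ r = 1 := by
      refine cX_inj hp (pow_mem hcT r) (one_mem _) fun i => ?_
      rw [cX_pow hp hcT, h5, cX_one]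
    apply emb_injective hp.inList f0
    rw [map_pow, map_one]
    have h7 : emb hp.inList f0 x = z * c * z⁻¹ := by rw [hc]; group
    rw [h7, conj_pow, h6]
    group
  have hgc : ∀ i j, g i * g j = g j * g i := by
    intro i j
    apply emb_injective hp.inList f0
    rw [map_mul, map_mul, hg, hg]
    calc z * t i * z⁻¹ * (z * t j * z⁻¹) = z * (t i * t j) * z⁻¹ := by group
      _ = z * (t j * t i) * z⁻¹ := by rw [TT_comm hp (ht i) (ht j)]
      _ = _ := by group
  have hC : IsPGroup r (Subgroup.centralizer (Set.range g)) := by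
    rintro ⟨x, hx⟩
    refine ⟨1, Subtype.ext ?_⟩
    show x ^ r ^ 1 = 1
    rw [pow_one]
    exact key x fun i => (Subgroup.mem_centralizer_iff.1 hx (g i) ⟨i, rfl⟩).symm
  obtain ⟨R, hR⟩ := hC.exists_le_sylow
  obtain ⟨a, ha⟩ := MulAction.exists_smul_eq ↥(D.group F) R P
  intro x hx
  refine ⟨1, ?_⟩
  rw [pow_one]
  have h4 : (a⁻¹ * x * a) ^ r = 1 := by
    refine key _ fun i => ?_
    have h5 : g i ∈ (R : Subgroup ↥(D.group F)) := by
      refine hR (Subgroup.mem_centralizer_iff.2 ?_)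
      rintro _ ⟨j, rfl⟩
      exact hgc j i
    have h6 : a * g i * a⁻¹ ∈ (P : Subgroup ↥(D.group F)) := by
      rw [← ha, Sylow.coe_subgroup_smul]
      exact Subgroup.smul_mem_pointwise_smul (g i) (MulAut.conj a) _ h5
    have h7 := Subgroup.mem_centralizer_iff.1 hx _ h6
    calc a⁻¹ * x * a * g i = a⁻¹ * (x * (a * g i * a⁻¹)) * a := by group
      _ = a⁻¹ * (a * g i * a⁻¹ * x) * a := by rw [h7]
      _ = g i * (a⁻¹ * x * a) := by group
  have h8 : x = a * (a⁻¹ * x * a) * a⁻¹ := by group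
  rw [h8, conj_pow, h4]
  group

end Cfsg.Agent.H531.EP.TorFam
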